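import Cfsg.Agent.Lib.TH2.GL2

/-!
# Squares of semisimple classes: the reduction to a Levi subgroup of type `GL₂`
-/

set_option autoImplicit false

namespace CfsgLib.TH2

open Matrix CfsgLib.LieMult CfsgLib.Chev CfsgLib.Classical
open scoped MatrixGroups

variable {F : Type*} [Field F] {G : Type*} [Group G]

/-- `n ∈ Q Q' σ Q` -/
def Cell (Q Q' : Subgroup G) (σ n : G) : Prop := ∃ u ∈ Q, ∃ v ∈ Q', ∃ u' ∈ Q, n = u * v * σ * u'

/-- `y` has no fixed points on `R` -/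
def Fpf (R : Subgroup G) (y : G) : Prop := ∀ v ∈ R, Commute y v → v = 1

theorem Fpf.inv {R : Subgroup G} {y : G} (h : Fpf R y) : Fpf R y⁻¹ :=
  fun v hv e => h v hv (Commute.inv_left_iff.1 e)

theorem Fpf.conj {R : Subgroup G} {y k : G} (h : Fpf R y) (hk : ∀ v ∈ R, k⁻¹ * v * k ∈ R) :
    Fpf R (k * y * k⁻¹) := fun v hv e => by
  have h1 := h _ (hk v hv) (show y * (k⁻¹ * v * k) = k⁻¹ * v * k * y by
    calc y * (k⁻¹ * v * k) = k⁻¹ * (k * y * k⁻¹ * v) * k := by group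
      _ = k⁻¹ * v * k * y := by rw [e.eq]; group)
  calc v = k * (k⁻¹ * v * k) * k⁻¹ := by group
    _ = 1 := by rw [h1]; group

theorem Fpf.exists_conj [Finite G] {R : Subgroup G} {y v : G} (h : Fpf R y)
    (hn : ∀ a ∈ R, y * a * y⁻¹ ∈ R) (hv : v ∈ R) : ∃ a, v * y = a * y * a⁻¹ := by
  let f : R → R := fun a => ⟨a * (y * a * y⁻¹)⁻¹, mul_mem a.2 (inv_mem (hn _ a.2))⟩
  have hf : Function.Injective f := fun a b e => by
    have e1 : (a : G) * (y * a * y⁻¹)⁻¹ = b * (y * b * y⁻¹)⁻¹ := congrArg Subtype.val e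
    have := h ((b : G)⁻¹ * a) (mul_mem (inv_mem b.2) a.2) (show y * _ = _ * y by
      calc y * ((b : G)⁻¹ * a) = (b : G)⁻¹ * (b * (y * b * y⁻¹)⁻¹) * y * a := by group
        _ = (b : G)⁻¹ * a * y := by rw [← e1]; group)
    exact Subtype.ext (inv_mul_eq_one.1 this).symm
  obtain ⟨a, ha⟩ := Finite.surjective_of_injective hf ⟨v, hv⟩
  have e1 : (a : G) * (y * a * y⁻¹)⁻¹ = v := congrArg Subtype.val ha
  exact ⟨a, by rw [← e1]; group⟩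

/-- Opposite parabolic subgroups `Q L`, `Q' L` whose Levi subgroup is `T · SL₂(F)`. -/
structure Par (ψ : SL(2, F) →* G) (Θ : Fˣ →* G) (T L Q Q' : Subgroup G) (e : G) : Prop where
  T_le : T ≤ L
  ψ_mem : ∀ m, ψ m ∈ L
  Θ_mem : ∀ c, Θ c ∈ T
  d_mem : ∀ a, ψ (sl2Diag a) ∈ T
  T_comm : ∀ a ∈ T, ∀ b ∈ T, a * b = b * a
  dec : ∀ l ∈ L, ∃ m, ∃ h ∈ T, l = ψ m * h
  T_act : ∀ h ∈ T, ∃ c, ∀ g, h * ψ g * h⁻¹ = ψ (sl2Conj c g)
  Θ_act : ∀ c g, Θ c * ψ g * (Θ c)⁻¹ = ψ (sl2Conj c g)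
  nQ : ∀ l ∈ L, ∀ q ∈ Q, l * q * l⁻¹ ∈ Q
  nQ' : ∀ l ∈ L, ∀ q ∈ Q', l * q * l⁻¹ ∈ Q'
  e_ψ : ∀ m, Commute e (ψ m)
  e_Q : ∀ q ∈ Q', e * q * e⁻¹ ∈ Q
  inv0 : ∀ h ∈ T, e * ψ slW * h * (e * ψ slW)⁻¹ = h⁻¹
  cells : ∀ g ≠ 1, ∃ k n, ∃ l ∈ L, ∃ q ∈ Q, k * g * k⁻¹ = n * l * q ∧ (n = e ∨
    (∀ h ∈ T, ∃ m, Cell Q Q' (ψ m * h) n) ∧ ∀ c, n⁻¹ * ψ (slX c) * n ∈ Q)
  odd : (2 : F) ≠ 0 → ∀ h ∈ T, ∃ m, Cell Q Q' (ψ m * h) e
  even : (2 : F) = 0 → (∃ z ∈ T, (∀ m, Commute z (ψ m)) ∧ Cell Q Q' z e) ∧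
    (∃ h ∈ T, Cell Q Q' (ψ slW * h) e) ∧ ∀ h ∈ T, Odd (orderOf h)

theorem exists_tr (m : SL(2, F)) (h2 : (2 : F) = 0) : ∃ c, slX c * m = 1 ∨ (slX c * m).1.trace ≠ 0 := by
  have hd : m.1 0 0 * m.1 1 1 - m.1 0 1 * m.1 1 0 = 1 := by rw [← det_fin_two]; exact m.2
  have ht : ∀ c, (slX c * m).1.trace = m.1 0 0 + m.1 1 1 + c * m.1 1 0 := fun c => by
    simp [trace_fin_two, slX_val, Matrix.vecMul, dotProduct, Fin.sum_univ_two]; ring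
  by_cases h0 : m.1.trace = 0
  swap
  · exact ⟨0, Or.inr (by rwa [slX_zero, one_mul])⟩
  rw [trace_fin_two] at h0
  by_cases h1 : m.1 1 0 = 0
  swap
  · exact ⟨1, Or.inr (by rw [ht, h0]; simpa using h1)⟩
  have h3 : m.1 1 1 = 1 := by
    have : (m.1 1 1 - 1) ^ 2 = 0 := by
      linear_combination m.1 1 1 * h0 - hd - m.1 0 1 * h1 - m.1 1 1 * h2
    exact sub_eq_zero.1 (pow_eq_zero_iff (n := 2) (by norm_num) |>.1 this)
  have h4 : m.1 0 0 = 1 := by linear_combination h0 - h3 - h2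
  refine ⟨-m.1 0 1, Or.inl (Subtype.ext ?_)⟩
  ext i j
  fin_cases i <;> fin_cases j <;> simp [slX_val, Matrix.mul_apply, Fin.sum_univ_two, h1, h3, h4]

theorem exists_sqrt [Finite F] (h2 : (2 : F) = 0) (c : Fˣ) : ∃ a : Fˣ, a * a = c := by
  refine Finite.surjective_of_injective (f := fun a : Fˣ => a * a) (fun a b e => Units.ext ?_) c
  have e1 : (a : F) * a = b * b := congrArg Units.val e
  have : ((a : F) - b) ^ 2 = 0 := by linear_combination e1 + ((b : F) * b - a * b) * h2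
  exact sub_eq_zero.1 (pow_eq_zero_iff (n := 2) (by norm_num) |>.1 this)

theorem conj_diag (a : Fˣ) (g : SL(2, F)) : sl2Diag a * g * (sl2Diag a)⁻¹ = sl2Conj (a * a) g := by
  rw [mul_inv_eq_iff_eq_mul]
  ext i j
  fin_cases i <;> fin_cases j <;>
    simp [sl2Conj, sl2Mk_val, sl2Diag_coe, Matrix.mul_apply, Fin.sum_univ_two] <;> field_simp

/-- in characteristic two the involutions of `SL₂` are conjugate to `w d` -/
theorem exists_conj_inv [Finite F] (h2 : (2 : F) = 0) {m : SL(2, F)} (h1 : m ≠ 1) (h0 : m.1.trace = 0)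
    (a : Fˣ) : ∃ k : SL(2, F), k * (slW * sl2Diag a) * k⁻¹ * m = 1 := by
  have key : ∀ y : SL(2, F), y ≠ 1 → y.1.trace = 0 → ∃ k : SL(2, F), y = k * slW * k⁻¹ := by
    intro y y1 y0
    have hd : y.1.det = 1 := y.2
    obtain ⟨k, hk⟩ := SpTh.exists_cmp (l := y.1) fun μ hμ => y1 (by
      have h3 : (μ - 1) ^ 2 = 0 := by
        have : μ * μ = 1 := by simpa [hμ, pow_two] using hd
        linear_combination this + (1 - μ) * h2
      exact Subtype.ext (by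
        rw [hμ, sub_eq_zero.1 (pow_eq_zero_iff (n := 2) (by norm_num) |>.1 h3), one_smul]; rfl))
    obtain ⟨s, hs⟩ := exists_sqrt h2 (GeneralLinearGroup.det k)
    have hw : SpTh.cmp y.1.trace y.1.det = (slW : SL(2, F)).1 := by
      rw [y0, hd, slW_val, SpTh.cmp, neg_eq_of_add_eq_zero_left (one_add_one_eq_two.trans h2)]
    have hy : SpecialLinearGroup.toGL y = k * SpecialLinearGroup.toGL slW * k⁻¹ :=
      Units.ext (by rw [toGL_val, hk, hw]; rfl)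
    refine ⟨sg k * sl2Diag s, SpecialLinearGroup.toGL_injective ?_⟩
    have e1 : sg k * sl2Diag s * slW * (sg k * sl2Diag s)⁻¹ =
        sg k * (sl2Diag s * slW * (sl2Diag s)⁻¹) * (sg k)⁻¹ := by group
    rw [hy, e1, conj_diag, hs, map_mul, map_mul, map_inv, toGL_conj, toGL_sg]
    group
  have hm : m⁻¹.1.trace = 0 := by
    rw [trace_fin_two] at h0 ⊢
    simpa [Matrix.SpecialLinearGroup.SL2_inv_expl, add_comm] using h0
  obtain ⟨k, hk⟩ := key m⁻¹ (inv_ne_one.2 h1) hm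
  obtain ⟨l, hl⟩ := key (slW * sl2Diag a) (fun e => by
    simpa [slW_val, sl2Diag_coe, Matrix.mul_apply, Fin.sum_univ_two] using
      congrArg (fun g : SL(2, F) => g.1 0 0) e)
    (by simp [trace_fin_two, slW_val, sl2Diag_coe])
  exact ⟨k * l⁻¹, by rw [hl, mul_eq_one_iff_eq_inv, hk]; group⟩

namespace Par

variable {ψ : SL(2, F) →* G} {Θ : Fˣ →* G} {T L Q Q' : Subgroup G} {e : G}
  (h : Par ψ Θ T L Q Q' e)
include h

theorem nQi {l q : G} (hl : l ∈ L) (hq : q ∈ Q) : l⁻¹ * q * l ∈ Q := by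
  simpa using h.nQ _ (inv_mem hl) q hq

theorem nQi' {l q : G} (hl : l ∈ L) (hq : q ∈ Q') : l⁻¹ * q * l ∈ Q' := by
  simpa using h.nQ' _ (inv_mem hl) q hq

theorem cell_left {σ n s : G} (c : Cell Q Q' σ n) (hs : s ∈ L) (hn : n⁻¹ * s * n ∈ Q) :
    Cell Q Q' (s * σ) n := by
  obtain ⟨u, hu, v, hv, u', hu', e1⟩ := c
  refine ⟨_, h.nQ s hs u hu, _, h.nQ' s hs v hv, u' * (n⁻¹ * s * n)⁻¹, mul_mem hu' (inv_mem hn), ?_⟩
  calc n = s * n * (n⁻¹ * s * n)⁻¹ := by group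
    _ = s * (u * v * σ * u') * (n⁻¹ * s * n)⁻¹ := by rw [← e1]
    _ = _ := by group

theorem cell_twist {σ n s s' : G} (c : Cell Q Q' σ n) (hs : s ∈ L) (hs' : s' ∈ L) (hn : s * n = n * s') :
    Cell Q Q' (s * σ * s'⁻¹) n := by
  obtain ⟨u, hu, v, hv, u', hu', e1⟩ := c
  refine ⟨_, h.nQ s hs u hu, _, h.nQ' s hs v hv, _, h.nQ s' hs' u' hu', ?_⟩
  calc n = s * n * s'⁻¹ := by rw [hn]; group
    _ = s * (u * v * σ * u') * s'⁻¹ := by rw [← e1]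
    _ = _ := by group

theorem cell_mul {σ n l : G} (c : Cell Q Q' σ n) (hl : l ∈ L) : Cell Q Q' (σ * l) (n * l) := by
  obtain ⟨u, hu, v, hv, u', hu', e1⟩ := c
  exact ⟨u, hu, v, hv, _, h.nQi hl hu', by rw [e1]; group⟩

theorem mul_cell {σ n l : G} (c : Cell Q Q' σ n) (hl : l ∈ L) : Cell Q Q' (l * σ) (l * n) := by
  obtain ⟨u, hu, v, hv, u', hu', e1⟩ := c
  exact ⟨_, h.nQ l hl u hu, _, h.nQ' l hl v hv, u', hu', by rw [e1]; group⟩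

theorem dec' {l : G} (hl : l ∈ L) : ∃ s ∈ T, ∃ m, l = s * ψ m := by
  obtain ⟨m, s, hs, e1⟩ := h.dec _ (inv_mem hl)
  exact ⟨s⁻¹, inv_mem hs, m⁻¹, by rw [map_inv, ← _root_.mul_inv_rev, ← e1, inv_inv]⟩

theorem T_dec [Finite F] (h2 : (2 : F) = 0) {s : G} (hs : s ∈ T) :
    ∃ a, ∃ z ∈ T, (∀ m, Commute z (ψ m)) ∧ s = ψ (sl2Diag a) * z := by
  obtain ⟨c, hc⟩ := h.T_act s hs
  obtain ⟨a, rfl⟩ := exists_sqrt h2 c
  refine ⟨a, (ψ (sl2Diag a))⁻¹ * s, mul_mem (inv_mem (h.d_mem a)) hs, fun m => ?_, by group⟩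
  have := hc m
  rw [← conj_diag, map_mul, map_mul, map_inv] at this
  calc (ψ (sl2Diag a))⁻¹ * s * ψ m = (ψ (sl2Diag a))⁻¹ * (s * ψ m * s⁻¹) * s := by group
    _ = ψ m * ((ψ (sl2Diag a))⁻¹ * s) := by
      rw [this, h.T_comm _ (inv_mem (h.d_mem a)) _ hs]
      have := h.T_comm _ (h.d_mem a) _ hs
      calc _ = ψ m * ((ψ (sl2Diag a))⁻¹ * s) := by group
        _ = _ := by rw [h.T_comm _ (inv_mem (h.d_mem a)) _ hs]

theorem e_z {z : G} (hz : z ∈ T) (hc : ∀ m, Commute z (ψ m)) : e * z * e⁻¹ = z⁻¹ := by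
  rw [← h.inv0 z hz, mul_assoc e (ψ slW), ← (hc slW).eq]
  group

theorem cell_z (h2 : (2 : F) = 0) {z z' : G} (hz : z ∈ T) (hc : ∀ m, Commute z (ψ m)) (hz' : z' ∈ T)
    (hc' : ∀ m, Commute z' (ψ m)) {m : SL(2, F)} (c : Cell Q Q' (ψ m * z) e) :
    Cell Q Q' (ψ m * z') e := by
  obtain ⟨k, hk⟩ := (h.even h2).2.2 _ (mul_mem hz' (inv_mem hz))
  have hs : (z' * z⁻¹) ^ (k + 1) ∈ T := pow_mem (mul_mem hz' (inv_mem hz)) _
  have hsc : ∀ m, Commute ((z' * z⁻¹) ^ (k + 1)) (ψ m) := fun m =>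
    ((hc' m).mul_left (hc m).inv_left).pow_left _
  have hss : (z' * z⁻¹) ^ (k + 1) * (z' * z⁻¹) ^ (k + 1) = z' * z⁻¹ := by
    rw [← pow_add, show k + 1 + (k + 1) = 2 * k + 1 + 1 by ring, pow_succ, ← hk, pow_orderOf_eq_one,
      one_mul]
  generalize (z' * z⁻¹) ^ (k + 1) = s at hs hsc hss
  have := h.cell_twist c (h.T_le hs) (h.T_le (inv_mem hs)) (n := e) (by
    have := h.e_z (inv_mem hs) fun m => (hsc m).inv_left
    rw [inv_inv] at this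
    rw [← mul_inv_eq_iff_eq_mul.1 this])
  rwa [inv_inv, ← mul_assoc, (hsc m).eq, mul_assoc, mul_assoc, h.T_comm z hz s hs, ← mul_assoc s, hss,
    inv_mul_cancel_right] at this

/-- every non-identity element is conjugate into a good part of the big cell -/
theorem exists_good [Finite F] {g : G} (hg : g ≠ 1) : ∃ k, ∃ v ∈ Q', ∃ u ∈ Q, ∃ m : SL(2, F),
    ((2 : F) ≠ 0 ∨ m = 1 ∨ m.1.trace ≠ 0) ∧ k * g * k⁻¹ = v * ψ m * u := by
  obtain ⟨k, n, l, hl, q, hq, e1, hn⟩ := h.cells g hg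
  suffices ∃ σ m, Cell Q Q' σ n ∧ σ * l = ψ m ∧ ((2 : F) ≠ 0 ∨ m = 1 ∨ m.1.trace ≠ 0) by
    obtain ⟨σ, m, ⟨u, hu, v, hv, u', hu', e2⟩, e3, hm⟩ := this
    refine ⟨u⁻¹ * k, v, hv, l⁻¹ * u' * l * q * u, mul_mem (mul_mem (h.nQi hl hu') hq) hu, m, hm, ?_⟩
    calc u⁻¹ * k * g * (u⁻¹ * k)⁻¹ = u⁻¹ * (k * g * k⁻¹) * u := by group
      _ = _ := by rw [e1, e2, ← e3]; group
  obtain ⟨s, hs, m, rfl⟩ := h.dec' hl
  by_cases h2 : (2 : F) = 0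
  swap
  · obtain ⟨m', c⟩ : ∃ m', Cell Q Q' (ψ m' * s⁻¹) n := by
      rcases hn with rfl | hn
      exacts [h.odd h2 _ (inv_mem hs), hn.1 _ (inv_mem hs)]
    exact ⟨_, m' * m, c, by rw [map_mul]; group, Or.inl h2⟩
  rcases hn with rfl | hn
  swap
  · obtain ⟨m', c⟩ := hn.1 _ (inv_mem hs)
    obtain ⟨t, ht⟩ := exists_tr (m' * m) h2
    exact ⟨_, _, h.cell_left c (h.ψ_mem (slX t)) (hn.2 t), by rw [map_mul, map_mul]; group, Or.inr ht⟩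
  obtain ⟨a, z, hz, hc, rfl⟩ := h.T_dec h2 hs
  obtain ⟨⟨z₀, hz₀, hc₀, c₀⟩, ⟨s₁, hs₁, c₁⟩, -⟩ := h.even h2
  have e2 : ψ (sl2Diag a) * z * ψ m = z * ψ (sl2Diag a * m) := by rw [← (hc _).eq, map_mul, mul_assoc]
  rw [e2]
  generalize sl2Diag a * m = y
  by_cases hy : y = 1 ∨ y.1.trace ≠ 0
  · refine ⟨_, y, h.cell_z h2 hz₀ hc₀ (inv_mem hz) (fun m => (hc m).inv_left) (m := 1)
      (by rwa [map_one, one_mul]), by rw [map_one]; group, Or.inr hy⟩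
  push Not at hy
  obtain ⟨b, z₁, hz₁, hc₁, rfl⟩ := h.T_dec h2 hs₁
  obtain ⟨k', hk'⟩ := exists_conj_inv h2 hy.1 hy.2 b
  have c₂ := h.cell_z h2 hz₁ hc₁ (inv_mem hz) (fun m => (hc m).inv_left) (m := slW * sl2Diag b)
    (by rwa [map_mul, mul_assoc])
  refine ⟨_, 1, h.cell_twist c₂ (h.ψ_mem k') (h.ψ_mem k') (h.e_ψ k').eq.symm, ?_, Or.inr (Or.inl rfl)⟩
  rw [← hk', map_mul _ _ y, map_mul _ _ k'⁻¹, map_mul _ k', map_inv, mul_assoc (ψ k' * _),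
    ← mul_assoc (ψ k')⁻¹, ← (hc k').inv_right.eq]
  group

theorem chi_mem (g : GL (Fin 2) F) : chi ψ Θ h.Θ_act g ∈ L :=
  mul_mem (h.ψ_mem _) (h.T_le (h.Θ_mem _))

theorem e_xh (t : F) : e * chi ψ Θ h.Θ_act (xh t) * e⁻¹ =
    ψ slW * (chi ψ Θ h.Θ_act (xh t))⁻¹ * (ψ slW)⁻¹ := by
  have h1 : (ψ slW)⁻¹ * Θ (-1) * ψ slW = Θ (-1) * ψ (sl2Diag (-1)) := by
    have := congrArg (chi ψ Θ h.Θ_act) (j_sq (F := F))
    simp only [map_mul, chi_toGL, chi_dg, map_one] at this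
    have h2 : Θ (-1) * Θ (-1) = 1 := by rw [← map_mul]; simp
    have h3 : ψ slW * ψ slW = ψ (sl2Diag (-1)) := by rw [← map_mul, slW_mul_self]
    have h4 : (ψ slW)⁻¹ = Θ (-1) * ψ slW * Θ (-1) := by
      rw [inv_eq_iff_mul_eq_one, ← this]; group
    rw [h4, ← h3]
    calc _ = Θ (-1) * ψ slW * (Θ (-1) * Θ (-1)) * ψ slW := by group
      _ = _ := by rw [h2]; group
  have h2 := h.inv0 _ (mul_mem (h.Θ_mem (-1)) (h.d_mem (-1)))
  rw [← h1] at h2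
  have h3 : e * Θ (-1) * e⁻¹ = Θ (-1) * ψ (sl2Diag (-1)) := by
    have h4 : (Θ (-1) * ψ (sl2Diag (-1)))⁻¹ = Θ (-1) * ψ (sl2Diag (-1)) := by
      rw [_root_.mul_inv_rev, ← map_inv, ← map_inv, ← map_inv, inv_neg_one,
        h.T_comm _ (h.d_mem _) _ (h.Θ_mem _)]
    rw [← h4, ← h1, ← h2]
    group
  have h5 := congrArg (chi ψ Θ h.Θ_act) (neg_xh t)
  simp only [map_mul, map_inv, chi_toGL] at h5
  rw [← h5, chi_xh]
  have h6 : ψ (slX t) * ψ (sl2Diag (-1)) = ψ (sl2Diag (-1)) * ψ (slX t) := by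
    rw [← map_mul, ← map_mul]
    congr 1
    ext i j
    fin_cases i <;> fin_cases j <;> simp [slX_val, sl2Diag_coe, Matrix.mul_apply, Fin.sum_univ_two]
  calc _ = e * ψ slW * e⁻¹ * (e * Θ (-1) * e⁻¹) * (e * ψ (slX t) * e⁻¹) := by group
    _ = _ := by
      rw [h3, (h.e_ψ slW).eq, (h.e_ψ (slX t)).eq, mul_assoc _ (ψ (slX t)) (ψ _), h6]
      group

/-- the square of the class of `z · χ(xh t)` contains every non-identity element -/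
theorem main [Finite F] [Finite G] {t : F} (h0 : t ≠ 0) (h4 : t ^ 2 + 4 ≠ 0) {z : G} (hz : z ∈ T)
    (hc : ∀ m, Commute z (ψ m)) (h2 : (2 : F) ≠ 0 → z = 1) {x : G}
    (hx : x = z * chi ψ Θ h.Θ_act (xh t)) (hf : Fpf Q x) {g : G} (hg : g ≠ 1) :
    ∃ u v : G, g = (u * x * u⁻¹) * (v * x * v⁻¹) := by
  have hcχ : ∀ a, Commute z (chi ψ Θ h.Θ_act a) := fun a =>
    (hc _).mul_right (h.T_comm _ hz _ (h.Θ_mem _))
  have hL := h.chi_mem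
  have hψ := chi_toGL ψ Θ h.Θ_act
  have hex := h.e_xh t
  generalize chi ψ Θ h.Θ_act = χ at *
  have hxL : x ∈ L := hx ▸ mul_mem (h.T_le hz) (hL _)
  have he : e * x * e⁻¹ = ψ slW * x⁻¹ * (ψ slW)⁻¹ := by
    calc _ = e * z * e⁻¹ * (e * χ (xh t) * e⁻¹) := by rw [hx]; group
      _ = _ := by
        rw [h.e_z hz hc, hex, hx, (hcχ _).eq, _root_.mul_inv_rev, ← mul_assoc z⁻¹, ← mul_assoc z⁻¹,
          (hc slW).inv_left.eq]
        group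
  have hf' : Fpf Q' x := fun v hv hc' => by
    have := hf.inv.conj (k := ψ slW) (fun v hv => h.nQi (h.ψ_mem _) hv) _ (h.e_Q v hv) (by
      rw [← he]
      exact (hc'.map (MulAut.conj e)))
    exact conj_eq_one_iff.1 this
  obtain ⟨k, v, hv, u, hu, m, hm, e1⟩ := h.exists_good hg
  obtain ⟨a, b, hab⟩ := exists_prod h0 h4 m hm
  obtain ⟨y, hy, ⟨c, hc'⟩, hyL, e2⟩ : ∃ y, Fpf Q y ∧ (∃ c, y = c * x * c⁻¹) ∧ y ∈ L ∧
      ψ m = χ a * x * (χ a)⁻¹ * y := by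
    rcases hab with e2 | ⟨h2', e2⟩ <;> replace e2 := congrArg χ e2 <;>
      simp only [map_mul, map_inv, hψ] at e2
    · refine ⟨χ b * x⁻¹ * (χ b)⁻¹, hf.inv.conj fun v hv => h.nQi (hL _) hv,
        ⟨χ b * (ψ slW)⁻¹ * e, ?_⟩, mul_mem (mul_mem (hL _) (inv_mem hxL)) (inv_mem (hL _)), ?_⟩
      · calc _ = χ b * (ψ slW)⁻¹ * (ψ slW * x⁻¹ * (ψ slW)⁻¹) * (χ b * (ψ slW)⁻¹)⁻¹ := by group
          _ = _ := by rw [← he]; group
      · have h5 := (hcχ (xh t * a⁻¹ * b * (xh t)⁻¹)).eq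
        simp only [map_mul, map_inv] at h5
        rw [e2, hx]
        calc _ = χ a * (χ (xh t) * (χ a)⁻¹ * χ b * (χ (xh t))⁻¹ * z) * z⁻¹ * (χ b)⁻¹ := by group
          _ = _ := by rw [← h5]; group
    · refine ⟨χ b * x * (χ b)⁻¹, hf.conj fun v hv => h.nQi (hL _) hv, ⟨_, rfl⟩,
        mul_mem (mul_mem (hL _) hxL) (inv_mem (hL _)), ?_⟩
      rw [e2, hx, h2 h2', one_mul]
  obtain ⟨a', ha'⟩ := (hf'.conj (k := χ a) fun v hv => h.nQi' (hL _) hv).exists_conj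
    (h.nQ' _ (mul_mem (mul_mem (hL _) hxL) (inv_mem (hL _)))) hv
  obtain ⟨b', hb'⟩ := hy.exists_conj (h.nQ _ hyL) (h.nQ _ hyL u hu)
  refine ⟨k⁻¹ * a' * χ a, k⁻¹ * b' * c, ?_⟩
  calc g = k⁻¹ * (k * g * k⁻¹) * k := by group
    _ = k⁻¹ * (v * (χ a * x * (χ a)⁻¹)) * (y * u * y⁻¹ * y) * k := by rw [e1, e2]; group
    _ = _ := by rw [ha', hb', hc']; group

end Par

end CfsgLib.TH2
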