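import Mathlib
import Cfsg.Agent.Lib.SpTh.GL2
import Cfsg.Agent.Lib.LieMult.SL2

/-!
# Products of two conjugates of a companion matrix of determinant `-1`
-/

set_option autoImplicit false

namespace CfsgLib.TH2

open Matrix CfsgLib.SpTh CfsgLib.LieMult CfsgLib.Chev CfsgLib.Classical
open scoped MatrixGroups

variable {F : Type*} [Field F]

/-- the companion matrix of `X ^ 2 - t X - 1` -/
def xh (t : F) : GL (Fin 2) F :=
  ⟨!![0, 1; 1, t], !![-t, 1; 1, 0], by ext i j; fin_cases i <;> fin_cases j <;> simp,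
    by ext i j; fin_cases i <;> fin_cases j <;> simp⟩

theorem xh_val (t : F) : (xh t).1 = !![0, 1; 1, t] := rfl

theorem xh_inv_val (t : F) : (xh t)⁻¹.1 = !![-t, 1; 1, 0] := rfl

theorem xh_cmp (t : F) : (xh t).1 = SpTh.cmp t (-1) := by simp [xh_val, SpTh.cmp]

theorem exists_conj {A B : GL (Fin 2) F} (h : A.1.trace ^ 2 - 4 * A.1.det ≠ 0)
    (h1 : B.1.trace = A.1.trace) (h2 : B.1.det = A.1.det) : ∃ k : GL (Fin 2) F, B = k * A * k⁻¹ := by
  obtain ⟨a, ha⟩ := exists_cmp (ne_smul_of_disc h)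
  obtain ⟨b, hb⟩ := exists_cmp (l := B.1) (ne_smul_of_disc (by rwa [h1, h2]))
  rw [h1, h2] at hb
  refine ⟨b * a⁻¹, Units.ext ?_⟩
  generalize SpTh.cmp A.1.trace A.1.det = C at ha hb
  simp only [_root_.mul_inv_rev, inv_inv, Units.val_mul]
  rw [ha, hb]
  simp only [Matrix.mul_assoc, Units.inv_mul_cancel_left]

theorem toGL_val (m : SL(2, F)) : (SpecialLinearGroup.toGL m).1 = m.1 := rfl

/-- the elements of `SL₂` that are products of two conjugates of `xh t` or its inverse -/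
theorem exists_prod [Finite F] {t : F} (h0 : t ≠ 0) (h4 : t ^ 2 + 4 ≠ 0) (m : SL(2, F))
    (hm : (2 : F) ≠ 0 ∨ m = 1 ∨ m.1.trace ≠ 0) : ∃ k l : GL (Fin 2) F,
      SpecialLinearGroup.toGL m = k * xh t * k⁻¹ * (l * (xh t)⁻¹ * l⁻¹) ∨
        (2 : F) ≠ 0 ∧ SpecialLinearGroup.toGL m = k * xh t * k⁻¹ * (l * xh t * l⁻¹) := by
  have := Fintype.ofFinite F
  have hd : m.1.det = 1 := m.2
  have d1 : (xh t).1.trace ^ 2 - 4 * (xh t).1.det ≠ 0 := by
    simpa [xh_val, det_fin_two, trace_fin_two] using h4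
  have d2 : (xh t)⁻¹.1.trace ^ 2 - 4 * (xh t)⁻¹.1.det ≠ 0 := by
    rw [xh_inv_val]
    simpa [det_fin_two, trace_fin_two] using h4
  have key : ∀ N : Matrix (Fin 2) (Fin 2) F, N.det = -1 → (m.1 * N).trace = t →
      (N.trace = t ∨ (2 : F) ≠ 0 ∧ N.trace = -t) → ∃ k l : GL (Fin 2) F,
      SpecialLinearGroup.toGL m = k * xh t * k⁻¹ * (l * (xh t)⁻¹ * l⁻¹) ∨
        (2 : F) ≠ 0 ∧ SpecialLinearGroup.toGL m = k * xh t * k⁻¹ * (l * xh t * l⁻¹) := by
    intro N hN h1 h2
    let B : GL (Fin 2) F := GeneralLinearGroup.mkOfDetNeZero N (by rw [hN]; simp)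
    have hB : B.1 = N := rfl
    obtain ⟨k, hk⟩ := exists_conj (A := xh t) (B := SpecialLinearGroup.toGL m * B) d1
      (by rw [Units.val_mul, toGL_val, hB, h1]; simp [xh_val, trace_fin_two])
      (by rw [Units.val_mul, toGL_val, hB, det_mul, hd, hN]; simp [xh_val, det_fin_two])
    rcases h2 with h2 | ⟨h2, h3⟩
    · obtain ⟨l, hl⟩ := exists_conj (A := xh t) (B := B) d1
        (by rw [hB, h2]; simp [xh_val, trace_fin_two]) (by rw [hB, hN]; simp [xh_val, det_fin_two])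
      exact ⟨k, l, Or.inl (by rw [← hk, hl]; group)⟩
    · obtain ⟨l, hl⟩ := exists_conj (A := (xh t)⁻¹) (B := B) d2
        (by rw [hB, h3, xh_inv_val]; simp [trace_fin_two])
        (by rw [hB, hN, xh_inv_val]; simp [det_fin_two])
      exact ⟨k, l, Or.inr ⟨h2, by rw [← hk, hl]; group⟩⟩
  by_cases h1 : m = 1
  · exact ⟨1, 1, Or.inl (by simp [h1])⟩
  by_cases hs : m.1.trace ^ 2 - 4 * m.1.det = 0
  swap
  · obtain ⟨N, k1, k2, k3⟩ := exists_mul_of_disc hs t (-1) t
    exact key N k2 k3 (Or.inl k1)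
  have h2 : (2 : F) ≠ 0 := by
    rcases hm with h | h | h
    · exact h
    · exact absurd h h1
    · intro h2
      refine h (pow_eq_zero_iff (n := 2) (by norm_num) |>.1 ?_)
      linear_combination hs + 2 * m.1.det * h2
  by_cases hc : ∃ μ : F, m.1 = μ • 1
  · obtain ⟨μ, hμ⟩ := hc
    have h3 : μ * μ = 1 := by simpa [hμ, pow_two] using hd
    have h5 : μ = -1 := (mul_self_eq_one_iff.1 h3).resolve_left fun e =>
      h1 (Subtype.ext (by rw [hμ, e, one_smul]; rfl))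
    exact key !![-t, 1; 1, 0] (by simp [det_fin_two]) (by simp [hμ, h5, trace_fin_two])
      (Or.inr ⟨h2, by simp [trace_fin_two]⟩)
  push Not at hc
  rw [hd] at hs
  rcases mul_self_eq_mul_self_iff.1 (show m.1.trace * m.1.trace = 2 * 2 by linear_combination hs) with e | e
  · obtain ⟨N, k1, k2, k3⟩ := exists_mul_of_sol hc (τ := -t) (d := -1) (τ' := t) (a := -(2 * t)⁻¹)
      (c := (2 * t)⁻¹) (by rw [hd, e]; field_simp; ring)
    exact key N k2 k3 (Or.inr ⟨h2, k1⟩)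
  · obtain ⟨N, k1, k2, k3⟩ := exists_mul_of_sol hc (τ := t) (d := -1) (τ' := t) (a := (2 * t)⁻¹)
      (c := (2 * t)⁻¹) (by rw [hd, e]; field_simp; ring)
    exact key N k2 k3 (Or.inl k1)

theorem not_dvd_xh [Finite F] (p : ℕ) [Fact p.Prime] [CharP F p] {t : F} (h4 : t ^ 2 + 4 ≠ 0) :
    ¬ p ∣ orderOf (xh t) :=
  not_dvd_orderOf p (xh_cmp t) (by rwa [mul_neg, mul_one, sub_neg_eq_add]) (orderOf_pos _)

theorem exists_t_odd (h2 : (2 : F) ≠ 0) : ∃ t : F, t ≠ 0 ∧ t ^ 2 + 4 ≠ 0 := by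
  by_cases h : (1 : F) ^ 2 + 4 = 0
  · refine ⟨2, h2, fun e => h2 (pow_eq_zero_iff (n := 3) (by norm_num) |>.1 ?_)⟩
    linear_combination e
  · exact ⟨1, one_ne_zero, h⟩

theorem exists_t_even [Finite F] (h2 : (2 : F) = 0) :
    ∃ t : F, t ≠ 0 ∧ t ^ 2 + 4 ≠ 0 ∧ xh t ^ (Nat.card F + 1) = 1 := by
  have := Fintype.ofFinite F
  obtain ⟨g, hg⟩ := sl2_exists_orderOf_eq_add_one (F := F)
  have hd : g.1.det = 1 := g.2
  have hq : 2 ≤ Fintype.card F := Fintype.one_lt_card
  have h0 : g.1.trace ≠ 0 := fun e => by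
    have h3 : g ^ 2 = 1 := by
      rw [det_fin_two] at hd
      rw [trace_fin_two] at e
      refine Subtype.ext ?_
      rw [pow_two]
      ext i j
      fin_cases i <;> fin_cases j <;> simp [Matrix.mul_apply, Fin.sum_univ_two]
      · linear_combination g.1 0 0 * e - hd - h2
      · linear_combination g.1 0 1 * e
      · linear_combination g.1 1 0 * e
      · linear_combination g.1 1 1 * e - hd - h2
    have := Nat.le_of_dvd (by norm_num) (orderOf_dvd_of_pow_eq_one h3)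
    omega
  have h4 : g.1.trace ^ 2 + 4 ≠ 0 := fun e => pow_ne_zero 2 h0 (by linear_combination e - 2 * h2)
  refine ⟨g.1.trace, h0, h4, ?_⟩
  obtain ⟨k, hk⟩ := exists_conj (A := SpecialLinearGroup.toGL g) (B := xh g.1.trace)
    (by rw [toGL_val, hd]; exact fun e => h4 (by linear_combination e + 4 * h2))
    (by simp [xh_val, trace_fin_two])
    (by rw [toGL_val, hd, xh_val, det_fin_two_of]; linear_combination -h2)
  rw [hk, conj_pow, ← map_pow, Nat.card_eq_fintype_card, ← hg, pow_orderOf_eq_one, map_one, mul_one,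
    mul_inv_cancel]

/-- `diag(c, 1)` -/
def dg : Fˣ →* GL (Fin 2) F where
  toFun c := ⟨!![(c : F), 0; 0, 1], !![((c⁻¹ : Fˣ) : F), 0; 0, 1],
    by ext i j; fin_cases i <;> fin_cases j <;> simp, by ext i j; fin_cases i <;> fin_cases j <;> simp⟩
  map_one' := by ext i j; fin_cases i <;> fin_cases j <;> simp
  map_mul' a b := by ext i j; fin_cases i <;> fin_cases j <;> simp

theorem dg_val (c : Fˣ) : (dg c).1 = !![(c : F), 0; 0, 1] := rfl

theorem det_dg (c : Fˣ) : GeneralLinearGroup.det (dg c) = c := by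
  ext; simp [dg_val, det_fin_two]

theorem toGL_conj (c : Fˣ) (g : SL(2, F)) :
    SpecialLinearGroup.toGL (sl2Conj c g) = dg c * SpecialLinearGroup.toGL g * (dg c)⁻¹ := by
  rw [eq_mul_inv_iff_mul_eq]
  ext i j
  fin_cases i <;> fin_cases j <;>
    simp [dg_val, sl2Conj, sl2Mk_val, Matrix.mul_apply, Fin.sum_univ_two, mul_comm]

/-- the component in `SL₂` -/
def sg (g : GL (Fin 2) F) : SL(2, F) :=
  ⟨(g * (dg (GeneralLinearGroup.det g))⁻¹).1, by
    rw [← GeneralLinearGroup.val_det_apply, map_mul, map_inv, det_dg, mul_inv_cancel, Units.val_one]⟩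

theorem toGL_sg (g : GL (Fin 2) F) :
    SpecialLinearGroup.toGL (sg g) = g * (dg (GeneralLinearGroup.det g))⁻¹ := Units.ext rfl

theorem sg_mul (g h : GL (Fin 2) F) : sg (g * h) = sg g * sl2Conj (GeneralLinearGroup.det g) (sg h) := by
  apply SpecialLinearGroup.toGL_injective
  rw [map_mul, toGL_conj, toGL_sg, toGL_sg, toGL_sg, map_mul, map_mul]
  group

theorem det_toGL (m : SL(2, F)) : GeneralLinearGroup.det (SpecialLinearGroup.toGL m) = 1 := by
  ext; simp

theorem sg_toGL (m : SL(2, F)) : sg (SpecialLinearGroup.toGL m) = m := by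
  apply SpecialLinearGroup.toGL_injective
  rw [toGL_sg, det_toGL, map_one, inv_one, mul_one]

variable {G : Type*} [Group G] (ψ : SL(2, F) →* G) (Θ : Fˣ →* G)
  (h : ∀ c g, Θ c * ψ g * (Θ c)⁻¹ = ψ (sl2Conj c g))

/-- the homomorphism from `GL₂` -/
def chi : GL (Fin 2) F →* G := MonoidHom.mk' (fun g => ψ (sg g) * Θ (GeneralLinearGroup.det g))
  fun a b => by rw [sg_mul, map_mul, map_mul, map_mul, ← h]; group

theorem chi_apply (g : GL (Fin 2) F) : chi ψ Θ h g = ψ (sg g) * Θ (GeneralLinearGroup.det g) := rfl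

theorem chi_toGL (m : SL(2, F)) : chi ψ Θ h (SpecialLinearGroup.toGL m) = ψ m := by
  rw [chi_apply, sg_toGL, det_toGL, map_one, mul_one]

theorem chi_dg (c : Fˣ) : chi ψ Θ h (dg c) = Θ c := by
  have : sg (dg c) = 1 := by
    apply SpecialLinearGroup.toGL_injective
    rw [toGL_sg, det_dg, mul_inv_cancel, map_one]
  rw [chi_apply, this, det_dg, map_one, one_mul]

theorem xh_eq (t : F) : xh t = SpecialLinearGroup.toGL slW * dg (-1) * SpecialLinearGroup.toGL (slX t) := by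
  ext i j
  fin_cases i <;> fin_cases j <;>
    simp [xh_val, dg_val, slW_val, slX_val, Matrix.mul_apply, Fin.sum_univ_two]

theorem chi_xh (t : F) : chi ψ Θ h (xh t) = ψ slW * Θ (-1) * ψ (slX t) := by
  rw [xh_eq, map_mul, map_mul, chi_toGL, chi_toGL, chi_dg]

theorem neg_xh (t : F) : xh t * SpecialLinearGroup.toGL (sl2Diag (-1)) =
    SpecialLinearGroup.toGL slW * (xh t)⁻¹ * (SpecialLinearGroup.toGL slW)⁻¹ := by
  rw [eq_mul_inv_iff_mul_eq, eq_mul_inv_iff_mul_eq]
  ext i j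
  fin_cases i <;> fin_cases j <;>
    simp [xh_val, slW_val, sl2Diag_coe, Matrix.mul_apply, Fin.sum_univ_two]

theorem j_sq : (SpecialLinearGroup.toGL slW * dg (-1) : GL (Fin 2) F) *
    (SpecialLinearGroup.toGL slW * dg (-1)) = 1 := by
  ext i j
  fin_cases i <;> fin_cases j <;>
    simp [dg_val, slW_val, Matrix.mul_apply, Fin.sum_univ_two]

end CfsgLib.TH2
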