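import Mathlib
import Cfsg.Agent.Lib.TwMult.Filt
import Cfsg.Agent.Lib.TwMult.RG

/-!
# Relative roots given by a table
-/

set_option autoImplicit false

namespace CfsgLib.TH2

open CfsgLib.RGD CfsgLib.Twist CfsgLib.TwMult
open scoped commutatorElement

/-- a layer that is a sum of natural modules: `j u` has no fixed points -/
theorem pair {G : Type*} [Group G] {R A B V : Subgroup G} {j u y v : G}
    (hV : ∀ v ∈ V, ∃ a ∈ A, ∃ b ∈ B, v = a * b) (AV : A ≤ V) (BV : B ≤ V) (RA : R ≤ A) (RB : R ≤ B)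
    (AB : A ⊓ B ≤ R) (cm : ∀ a ∈ V, ∀ b ∈ V, ⁅a, b⁆ ∈ R) (uV : ∀ v ∈ V, ⁅u, v⁆ ∈ B)
    (uB : ∀ b ∈ B, ⁅u, b⁆ ∈ R) (yA : ∀ a ∈ A, ⁅y, a⁆ ∈ R) (uR : ∀ r ∈ R, u * r * u⁻¹ ∈ R)
    (yR : ∀ r ∈ R, y * r * y⁻¹ ∈ R) (jA : ∀ a ∈ A, j * a * j⁻¹ ∈ B) (jB : ∀ b ∈ B, j * b * j⁻¹ ∈ A)
    (jj : j * j = 1) (nA : ∀ a ∈ A, u * y * u * a * (u * y * u)⁻¹ ∈ B) (hv : v ∈ V)
    (c : Commute (j * u) v) : v ∈ R := by
  obtain ⟨a, ha, b, hb, rfl⟩ := hV v hv
  have ji : j⁻¹ = j := inv_eq_of_mul_eq_one_right jj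
  have jR : ∀ r ∈ R, j * r * j⁻¹ ∈ R := fun r hr => AB ⟨jB r (RB hr), jA r (RA hr)⟩
  have VR : ∀ g ∈ V, ∀ r ∈ R, g * r * g⁻¹ ∈ R := fun g hg r hr => by
    have := mul_mem (cm g hg r (AV (RA hr))) hr
    rwa [commutatorElement_def, inv_mul_cancel_right] at this
  have e1 : ⁅u, a * b⁆ = j * a * j⁻¹ * (j * b * j⁻¹) * (a * b)⁻¹ := by
    calc _ = j⁻¹ * (j * u * (a * b)) * u⁻¹ * (a * b)⁻¹ := by rw [commutatorElement_def]; group
      _ = j⁻¹ * (a * b) * j * (a * b)⁻¹ := by rw [c.eq]; group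
      _ = _ := by nth_rw 1 [ji]; nth_rw 2 [← ji]; group
  have h1 : j * b * j⁻¹ * a⁻¹ ∈ R := AB <| Subgroup.mem_inf.2 ⟨mul_mem (jB b hb) (inv_mem ha), by
    have := mul_mem (mul_mem (inv_mem (jA a ha)) (uV _ hv)) (mul_mem (RB (cm a (AV ha) b (BV hb))) hb)
    rw [e1, commutatorElement_def] at this
    convert this using 1
    group⟩
  have h2 : b * (j * a * j⁻¹)⁻¹ ∈ R := by
    have := jR _ h1
    convert this using 1
    calc _ = (j * j) * b * (j * j)⁻¹ * (j * a * j⁻¹)⁻¹ := by rw [jj]; group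
      _ = _ := by group
  have h3 : ⁅u, a * b⁆ ∈ R := by
    have := mul_mem (mul_mem (inv_mem h2) (VR b (BV hb) _ h1)) (cm b (BV hb) a (AV ha))
    rw [e1]
    convert this using 1
    rw [commutatorElement_def]; group
  have h4 : ⁅u, a⁆ ∈ R := by
    have := mul_mem h3 (inv_mem (VR a (AV ha) _ (uB b hb)))
    convert this using 1
    simp only [commutatorElement_def]; group
  have h5 : ⁅u * y * u, a⁆ ∈ R := by
    have := mul_mem (uR _ (mul_mem (yR _ h4) (yA a ha))) h4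
    convert this using 1
    simp only [commutatorElement_def]; group
  have h6 : a ∈ R := AB <| Subgroup.mem_inf.2 ⟨ha, by
    have := mul_mem (inv_mem (RB h5)) (nA a ha)
    convert this using 1
    simp only [commutatorElement_def]; group⟩
  have h7 := mul_mem h2 (jR a h6)
  rw [inv_mul_cancel_right] at h7
  exact mul_mem h6 h7

variable {ι κ : Type} [Fintype κ] [DecidableEq κ] {Φ : RootSys ι κ} {n : ℕ}

/-- `ρ` maps the roots to the relative roots -/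
structure RR (Φ : RootSys ι κ) (ρ : ι → Fin n) (op : Fin n → Fin n) (rs : Fin n → Fin n → Fin n → Bool)
    (ps : List (Fin n)) : Prop where
  sum : ∀ r s k, Φ.IsSum r s k → ρ s ≠ op (ρ r) → rs (ρ r) (ρ s) (ρ k) = true
  neg : ∀ r, ρ (Φ.neg r) = op (ρ r)
  pos : ∀ r, Φ.Pos r ↔ ρ r ∈ ps

/-- the sums of roots of `A` and `B` lie in `C` -/
def OK (op : Fin n → Fin n) (rs : Fin n → Fin n → Fin n → Bool) (A B C : List (Fin n)) : Prop :=
  ∀ x ∈ A, ∀ y ∈ B, y ≠ op x ∧ ∀ z, rs x y z = true → z ∈ C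

instance (op : Fin n → Fin n) (rs : Fin n → Fin n → Fin n → Bool) (A B C : List (Fin n)) :
    Decidable (OK op rs A B C) := by unfold OK; infer_instance

variable {K : Type*} [Field K] {G : Type*} [Group G]

/-- the group generated by the root groups of a list of relative roots -/
def Z (S : StSys Φ K G) (ρ : ι → Fin n) (A : List (Fin n)) : Subgroup G := S.UU {r | ρ r ∈ A}

variable {S : StSys Φ K G} {ρ : ι → Fin n} {op : Fin n → Fin n} {rs : Fin n → Fin n → Fin n → Bool}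
  {ps A B C : List (Fin n)}

theorem Z_mono (h : ∀ x ∈ A, x ∈ B) : Z S ρ A ≤ Z S ρ B := S.UU_mono fun _ hr => h _ hr

theorem Z_nil : Z S ρ [] = ⊥ := by simp [Z, S.UU_empty]

theorem Z_acts {g u : G} {w : Equiv.Perm ι} (ha : S.Acts g w) {f : Fin n → Fin n}
    (hf : ∀ r, ρ (w r) = f (ρ r)) (h : ∀ x ∈ A, f x ∈ B) (hu : u ∈ Z S ρ A) : g * u * g⁻¹ ∈ Z S ρ B :=
  ha.conj_mem_UU (fun r hr => by rw [Set.mem_setOf_eq, hf]; exact h _ hr) hu

theorem Z_H {g u : G} (hg : g ∈ S.H) (hu : u ∈ Z S ρ A) : g * u * g⁻¹ ∈ Z S ρ A := S.H_conj_mem_UU hg hu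

namespace RR

variable (h : RR Φ ρ op rs ps)
include h

theorem ok (o : OK op rs A B C) : ∀ r ∈ {r | ρ r ∈ A}, ∀ s ∈ {r | ρ r ∈ B},
    s ≠ Φ.neg r ∧ ∀ k, Φ.IsSum r s k → k ∈ {r | ρ r ∈ C} := fun r hr s hs =>
  ⟨fun e => (o _ hr _ hs).1 (by rw [e, h.neg]), fun k hk =>
    (o _ hr _ hs).2 _ (h.sum r s k hk (o _ hr _ hs).1)⟩

theorem conj (o : OK op rs A B B) {g u : G} (hg : g ∈ Z S ρ A) (hu : u ∈ Z S ρ B) :
    g * u * g⁻¹ ∈ Z S ρ B := S.conj_mem_UU (h.ok o) hg hu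

theorem comm (o : OK op rs B A C) (o1 : OK op rs A C C) (o2 : OK op rs B C C) {a b : G}
    (ha : a ∈ Z S ρ A) (hb : b ∈ Z S ρ B) : ⁅a, b⁆ ∈ Z S ρ C :=
  comm_mem_of_UU (fun r hr s hs t u => by
      rw [commutator_x]
      exact S.comm_mem_UU (h.ok o s hs r hr).1 (h.ok o s hs r hr).2 _ _)
    (fun r hr t _ hc => h.conj o1 (S.x_mem_UU hr t) hc) (fun r hr t _ hc => h.conj o2 (S.x_mem_UU hr t) hc)
    ha hb

theorem commute (o : OK op rs B A []) {a b : G} (ha : a ∈ Z S ρ A) (hb : b ∈ Z S ρ B) : Commute a b := by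
  have := h.comm o (fun _ _ _ h => absurd h (by simp)) (fun _ _ _ h => absurd h (by simp)) ha hb
  rw [Z_nil, Subgroup.mem_bot] at this
  exact commutatorElement_eq_one_iff_commute.1 this

theorem closed (o : OK op rs A A A) : Φ.Closed {r | ρ r ∈ A} := fun r hr s hs => (h.ok o r hr s hs).2

theorem pos' (p : ∀ x ∈ A, x ∈ ps) : ∀ r ∈ {r | ρ r ∈ A}, Φ.Pos r := fun r hr => (h.pos r).2 (p _ hr)

theorem U_eq : S.U = Z S ρ ps := congrArg S.UU (Set.ext h.pos)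

variable [Finite ι]

theorem mul (o : OK op rs C C C) (p : ∀ x ∈ C, x ∈ ps) (q : ∀ x ∈ C, x ∈ A ∨ x ∈ B) {g : G}
    (hg : g ∈ Z S ρ C) : ∃ a ∈ Z S ρ A, ∃ b ∈ Z S ρ B, g = a * b := by
  obtain ⟨a, ha, b, hb, e⟩ := S.exists_mul_of_subset_union (Ψ₁ := {r | ρ r ∈ A}) (Ψ₂ := {r | ρ r ∈ B})
    (h.closed o) (h.pos' p) (fun r hr => q _ hr) hg
  exact ⟨a, S.UU_mono Set.inter_subset_right ha, b, S.UU_mono Set.inter_subset_right hb, e⟩

theorem inf (hS : S.Nondeg) (o1 : OK op rs A A A) (o2 : OK op rs B B B) (p1 : ∀ x ∈ A, x ∈ ps)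
    (p2 : ∀ x ∈ B, x ∈ ps) (q : ∀ x ∈ A, x ∈ B → x ∈ C) : Z S ρ A ⊓ Z S ρ B ≤ Z S ρ C := by
  rw [Z, Z, hS.UU_inf_UU (h.closed o1) (h.pos' p1) (h.closed o2) (h.pos' p2)]
  exact S.UU_mono fun r hr => q _ hr.1 hr.2

/-- a torus element without fixed points -/
theorem eq_one (hS : S.Nondeg) (o : OK op rs A A A) (p : ∀ x ∈ A, x ∈ ps) {d a : G} {l : ι → K}
    (e : ∀ s t, d * S.x s t * d⁻¹ = S.x s (l s * t)) (hl : ∀ r, ρ r ∈ A → l r ≠ 1) (ha : a ∈ Z S ρ A)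
    (c : d * a * d⁻¹ = a) : a = 1 := by
  obtain ⟨L, hL, hm⟩ := StSys.exists_list {r | ρ r ∈ A}
  obtain ⟨t, -, rfl⟩ := S.exists_xprod (h.closed o) (h.pos' p) hL (fun r hr => (hm r).2 hr) ha
  rw [conj_xprod e] at c
  refine xprod_zero S fun r hr => ?_
  have := hS.xprod_inj hL (fun r hr => h.pos' p r ((hm r).1 hr)) c r hr
  exact (mul_eq_right₀ · |>.1 this) |> fun k => by_contra fun h0 => hl r ((hm r).1 hr) (k h0)

end RR

theorem chw_mul (c d : κ → Kˣ) (r : ι) : chw Φ (c * d) r = chw Φ c r * chw Φ d r := by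
  simp [chw, mul_zpow, Finset.prod_mul_distrib]

theorem chw_neg (c : κ → Kˣ) (r : ι) : chw Φ c (Φ.neg r) = (chw Φ c r)⁻¹ := by
  simp [chw, Φ.wt_neg]

theorem chw_const (c : Kˣ) (r : ι) : chw Φ (fun _ => c) r = c ^ ∑ j, Φ.wt j r := by
  rw [chw]
  induction (Finset.univ : Finset κ) using Finset.induction_on with
  | empty => simp
  | insert a s ha ih => rw [Finset.prod_insert ha, Finset.sum_insert ha, ih, zpow_add]

/-- a homomorphism into the torus -/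
theorem exists_hom {B : Type} {T : Tw S B} (hS : Sharp S) {M : Subgroup G} (hH : S.H ⊓ T.Fix ≤ M)
    {E : Type*} [Group E] (c : E →* (κ → Kˣ)) (hc : ∀ a, SInv T (c a)) : ∃ Θ : E →* M,
      ∀ a, (Θ a : G) ∈ S.H ∧ ∀ r t, Θ a * S.x r t * (Θ a : G)⁻¹ = S.x r (chw Φ (c a) r * t) := by
  choose d h1 h2 using fun a => exists_torus hS (hc a)
  have h3 : ∀ a, Chi S (d a) fun j => chw Φ (c a) (Φ.simple j) := fun a j t => h2 a _ t
  refine ⟨MonoidHom.mk' (fun a => ⟨d a, hH (h1 a)⟩) fun a b => Subtype.ext ?_, fun a => ⟨(h1 a).1, h2 a⟩⟩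
  refine hS.eq_of_chi (h1 _).1 (mul_mem (h1 a).1 (h1 b).1) (h3 _) ?_
  simp only [map_mul, chw_mul]
  exact (h3 a).mul (h3 b)

end CfsgLib.TH2
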