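import Cfsg.Agent.Lib.TH2.TitsD0
import Cfsg.Agent.Lib.TH2.TitsD1
import Cfsg.Agent.Lib.TH2.TitsD2
import Cfsg.Agent.Lib.TH2.TitsD3
import Cfsg.Agent.Lib.LieModel.Tits.Iso

/-! every element of the Tits group is a product of two conjugates of an element of order 13 -/

set_option autoImplicit false
set_option maxRecDepth 100000
set_option Elab.async false

namespace CfsgLib.TH2.Tits

open CfsgLib.Comput CfsgLib.LieModel.Tits

variable {G Ω : Type*} [Group G] [MulAction G Ω] {g : ℕ → G} {pt : ℕ → Ω} {P : G → Prop}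

theorem chn (C : TE g 1755 11 pt (stepN Q.W) P LF) (hG : Nat.card G = 17971200)
    {cs : List ((ℕ × ℕ) × List ℕ × ℕ)} (h : chOK (stepN Q.W) 1755 cs [] = true)
    (h' : (cs.map (·.1.2)).prod = 17971200) : Chn 1755 pt (cs.map (·.1)) (Fx G pt []) := by
  have := C.fin
  refine (chOK_sound C.sm cs (by simp) h).2.2 ?_
  rw [h', ← hG]
  exact Subgroup.card_le_card_group _

theorem n0_ok : ndB (stepN Q.W) 1755 (22, 80) [(0, 0)] [3589, 24] 6 (Nat.lor (Nat.lor (Nat.lor (Nat.lor (msk t0) (msk t1)) (msk t2)) (msk t3)) (msk t4)) = true := by decide +kernel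

theorem gd0 (C : TE g 1755 11 pt (stepN Q.W) P LF) (hG : Nat.card G = 17971200) : Gd pt P [(0, 0)] := by
  have hK : Chn 1755 pt [(22, 80), (164, 16), (642, 8)] (Fx G pt [(0, 0)]) := (chn C hG ch0_ok rfl).2.2
  have hb : 22 < 1755 := by norm_num
  have hp : ∀ p ∈ [(0, 0)], p.1 < 1755 ∧ p.2 < 1755 := by simp
  exact C.gd_node hp hK n0_ok (((((C.go_sound t0 hb hp hK.2.2 j0).or (C.go_sound t1 hb hp hK.2.2 j1)).or (C.go_sound t2 hb hp hK.2.2 j2)).or (C.go_sound t3 hb hp hK.2.2 j3)).or (C.go_sound t4 hb hp hK.2.2 j4))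

theorem n1_ok : ndB (stepN Q.W) 1755 (5, 10) [(6, 0)] [19, 22] 3 (Nat.lor (msk t5) (msk t6)) = true := by decide +kernel

theorem gd1 (C : TE g 1755 11 pt (stepN Q.W) P LF) (hG : Nat.card G = 17971200) : Gd pt P [(6, 0)] := by
  have hK : Chn 1755 pt [(5, 10), (52, 8), (1, 8), (405, 8), (1096, 2)] (Fx G pt [(6, 0)]) := (chn C hG ch1_ok rfl).2.2
  have hb : 5 < 1755 := by norm_num
  have hp : ∀ p ∈ [(6, 0)], p.1 < 1755 ∧ p.2 < 1755 := by simp
  exact C.gd_node hp hK n1_ok ((C.go_sound t5 hb hp hK.2.2 j5).or (C.go_sound t6 hb hp hK.2.2 j6))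

theorem n2_ok : ndB (stepN Q.W) 1755 (23, 80) [(23, 0)] [4874, 4101] 5 (Nat.lor (Nat.lor (msk t7) (msk t8)) (msk t9)) = true := by decide +kernel

theorem gd2 (C : TE g 1755 11 pt (stepN Q.W) P LF) (hG : Nat.card G = 17971200) : Gd pt P [(23, 0)] := by
  have hK : Chn 1755 pt [(23, 80), (189, 8), (1024, 16)] (Fx G pt [(23, 0)]) := (chn C hG ch2_ok rfl).2.2
  have hb : 23 < 1755 := by norm_num
  have hp : ∀ p ∈ [(23, 0)], p.1 < 1755 ∧ p.2 < 1755 := by simp
  exact C.gd_node hp hK n2_ok (((C.go_sound t7 hb hp hK.2.2 j7).or (C.go_sound t8 hb hp hK.2.2 j8)).or (C.go_sound t9 hb hp hK.2.2 j9))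

theorem n3_ok : ndB (stepN Q.W) 1755 (19, 80) [(188, 0)] [6665, 32, 1773317] 3 (Nat.lor (Nat.lor (Nat.lor (Nat.lor (Nat.lor (Nat.lor (msk t10) (msk t11)) (msk t12)) (msk t13)) (msk t14)) (msk t15)) (msk t16)) = true := by decide +kernel

theorem gd3 (C : TE g 1755 11 pt (stepN Q.W) P LF) (hG : Nat.card G = 17971200) : Gd pt P [(188, 0)] := by
  have hK : Chn 1755 pt [(19, 80), (25, 2), (187, 4), (1676, 8), (1283, 2)] (Fx G pt [(188, 0)]) := (chn C hG ch3_ok rfl).2.2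
  have hb : 19 < 1755 := by norm_num
  have hp : ∀ p ∈ [(188, 0)], p.1 < 1755 ∧ p.2 < 1755 := by simp
  exact C.gd_node hp hK n3_ok (((((((C.go_sound t10 hb hp hK.2.2 j10).or (C.go_sound t11 hb hp hK.2.2 j11)).or (C.go_sound t12 hb hp hK.2.2 j12)).or (C.go_sound t13 hb hp hK.2.2 j13)).or (C.go_sound t14 hb hp hK.2.2 j14)).or (C.go_sound t15 hb hp hK.2.2 j15)).or (C.go_sound t16 hb hp hK.2.2 j16))

theorem n4_ok : ndB (stepN Q.W) 1755 (839, 1024) [(841, 0)] [135859717, 726789] 3 (Nat.lor (Nat.lor (Nat.lor (Nat.lor (Nat.lor (Nat.lor (Nat.lor (Nat.lor (Nat.lor (Nat.lor (Nat.lor (msk t17) (msk t18)) (msk t19)) (msk t20)) (msk t21)) (msk t22)) (msk t23)) (msk t24)) (msk t25)) (msk t26)) (msk t27)) (msk t28)) = true := by decide +kernel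

theorem gd4 (C : TE g 1755 11 pt (stepN Q.W) P LF) (hG : Nat.card G = 17971200) : Gd pt P [(841, 0)] := by
  have hK : Chn 1755 pt [(839, 1024), (1, 5), (1539, 2)] (Fx G pt [(841, 0)]) := (chn C hG ch4_ok rfl).2.2
  have hb : 839 < 1755 := by norm_num
  have hp : ∀ p ∈ [(841, 0)], p.1 < 1755 ∧ p.2 < 1755 := by simp
  exact C.gd_node hp hK n4_ok ((((((((((((C.go_sound t17 hb hp hK.2.2 j17).or (C.go_sound t18 hb hp hK.2.2 j18)).or (C.go_sound t19 hb hp hK.2.2 j19)).or (C.go_sound t20 hb hp hK.2.2 j20)).or (C.go_sound t21 hb hp hK.2.2 j21)).or (C.go_sound t22 hb hp hK.2.2 j22)).or (C.go_sound t23 hb hp hK.2.2 j23)).or (C.go_sound t24 hb hp hK.2.2 j24)).or (C.go_sound t25 hb hp hK.2.2 j25)).or (C.go_sound t26 hb hp hK.2.2 j26)).or (C.go_sound t27 hb hp hK.2.2 j27)).or (C.go_sound t28 hb hp hK.2.2 j28))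

theorem all (C : TE g 1755 11 pt (stepN Q.W) P LF) (hG : Nat.card G = 17971200) (y : G) : P y :=
  (C.gd_node (ps := []) (by simp) (chn C hG ch0_ok rfl) top_ok
    (((((Cv.one fun _ => gd0 C hG).or (Cv.one fun _ => gd1 C hG)).or (Cv.one fun _ => gd2 C hG)).or
      (Cv.one fun _ => gd3 C hG)).or (Cv.one fun _ => gd4 C hG))).2 y (by simp [Maps])

theorem main {M : Type*} [Group M] (e : M ≃* QG) :
    ∃ x : M, Odd (orderOf x) ∧ ∀ y : M, ∃ u v : M, y = (u * x * u⁻¹) * (v * x * v⁻¹) := by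
  have hK : ∀ m, permG 1755 Q.W m ∈ QG := permG_mem (Q.inA_top Q.E) (by decide +kernel)
  have hG : Nat.card M = 17971200 := (Nat.card_congr e.toEquiv).trans card_QG
  have : Finite M := Nat.finite_of_card_ne_zero (by rw [hG]; norm_num)
  letI := pullAct e
  have V := WM.pull e Q.W_ok hK (k := 11) (by norm_num)
  have hi : ∀ m < 35, pullG e hK (nth 0 IVL m) = (pullG e hK m)⁻¹ := fun m hm => by
    have h1 : evL _ _ = evL _ _ := V.holds (allLt_sound iv_ok m hm)
    have h2 : nth 0 IVL m < 255 := by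
      rcases nth_mem_or 0 IVL m with h | h
      · exact (by decide : ∀ a ∈ IVL, a < 255) _ h
      · omega
    rw [evL_two, ev_letter _ h2, ev_letter _ (by omega), evL_nil] at h1
    exact eq_inv_of_mul_eq_one_left h1
  have h13 : evL _ _ = evL _ _ := V.holds (e := (List.replicate 13 3, [])) (by decide +kernel)
  rw [evL_replicate, ev_letter _ (by norm_num), evL_nil] at h13
  exact ⟨pullG e hK 2, (by decide : Odd 13).of_dvd_nat (orderOf_dvd_of_pow_eq_one h13),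
    all (TE.prod (SM.pull e Q.W_ok hK (by norm_num)) (acts_pull e Q.W_ok hK) (by norm_num) (by norm_num) hi 2) hG⟩

end CfsgLib.TH2.Tits
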