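import Mathlib
import Cfsg.Agent.Lib.Comput.ConjEnum

/-!
# Enumeration up to conjugacy with free bases and leaves given by explicit products
-/

set_option autoImplicit false

namespace CfsgLib.TH2

open CfsgLib.Comput MulAction Subgroup
open scoped Pointwise

variable {G Ω : Type*} [Group G] [MulAction G Ω]

/-- the pointwise stabiliser of the second points -/
def Fx (G : Type*) [Group G] [MulAction G Ω] (pt : ℕ → Ω) : List (ℕ × ℕ) → Subgroup G
  | [] => ⊤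
  | p :: ps => Fx G pt ps ⊓ stabilizer G (pt p.2)

theorem mem_Fx {pt : ℕ → Ω} {ps : List (ℕ × ℕ)} {y : G} : y ∈ Fx G pt ps ↔ ∀ p ∈ ps, y • pt p.2 = pt p.2 := by
  induction ps with
  | nil => simp [Fx]
  | cons p ps ih => rw [Fx, mem_inf, ih, mem_stabilizer_iff, List.forall_mem_cons, and_comm]

/-- a chain of base points with bounds for the orbit lengths -/
def Chn (n : ℕ) (pt : ℕ → Ω) : List (ℕ × ℕ) → Subgroup G → Prop
  | [], K => K = ⊥
  | e :: l, K => e.1 < n ∧ (orbit K (pt e.1)).ncard ≤ e.2 ∧ Chn n pt l (K ⊓ stabilizer G (pt e.1))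

/-- the word fixes the point -/
noncomputable def fixB (step : ℕ → ℕ → ℕ) (d p : ℕ) : Bool :=
  Nat.beq (act step d (Nat.shiftLeft 1 p)) (Nat.shiftLeft 1 p)

/-- the test of a chain -/
noncomputable def chOK (step : ℕ → ℕ → ℕ) (n : ℕ) (cs : List ((ℕ × ℕ) × List ℕ × ℕ)) : List (ℕ × ℕ) → Bool :=
  List.rec (motive := fun _ => List (ℕ × ℕ) → Bool) (fun _ => true)
    (fun e _ ih ps => band (band (Nat.ble (Nat.succ e.1.1) n) (Nat.ble 1 e.1.2))
      (band (allL (fun d => allL (fun p => fixB step d p.2) ps) e.2.1)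
        (band (Nat.ble e.1.2 (pop n (grow step e.2.1 e.2.2 (Nat.shiftLeft 1 e.1.1)))) (ih ((e.1.1, e.1.1) :: ps))))) cs

variable {g : ℕ → G} {n k : ℕ} {pt : ℕ → Ω}

theorem card_eq (K : Subgroup G) [Finite G] (x : Ω) :
    Nat.card K = (orbit K x).ncard * Nat.card (K ⊓ stabilizer G x : Subgroup G) := by
  have h1 := Nat.card_congr (orbitProdStabilizerEquivGroup K x)
  rw [Nat.card_prod, Nat.card_coe_set_eq] at h1
  rw [← h1]
  congr 1
  refine Nat.card_congr ⟨fun y => ⟨y.1.1, y.1.2, y.2⟩, fun y => ⟨⟨y.1, y.2.1⟩, y.2.2⟩, fun _ => rfl, fun _ => rfl⟩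

theorem chOK_sound [Finite G] {step : ℕ → ℕ → ℕ} (M : SM g n pt step) (cs : List ((ℕ × ℕ) × List ℕ × ℕ))
    {ps : List (ℕ × ℕ)} (hps : ∀ p ∈ ps, p.2 < n) (h : chOK step n cs ps = true) :
    0 < (cs.map (·.1.2)).prod ∧ (cs.map (·.1.2)).prod ≤ Nat.card (Fx G pt ps) ∧
      (Nat.card (Fx G pt ps) ≤ (cs.map (·.1.2)).prod → Chn n pt (cs.map (·.1)) (Fx G pt ps)) := by
  induction cs generalizing ps with
  | nil => exact ⟨Nat.one_pos, Nat.card_pos, fun h1 => eq_bot_of_card_le _ h1⟩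
  | cons e cs ih =>
    have h' : band (band (Nat.ble (Nat.succ e.1.1) n) (Nat.ble 1 e.1.2))
      (band (allL (fun d => allL (fun p => fixB step d p.2) ps) e.2.1)
        (band (Nat.ble e.1.2 (pop n (grow step e.2.1 e.2.2 (Nat.shiftLeft 1 e.1.1))))
          (chOK step n cs ((e.1.1, e.1.1) :: ps)))) = true := h
    simp only [band_eq_true] at h'
    obtain ⟨⟨h1, h0⟩, h2, h3, h4⟩ := h'
    have hb : e.1.1 < n := Nat.le_of_ble_eq_true h1
    have h0' : 0 < e.1.2 := Nat.le_of_ble_eq_true h0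
    obtain ⟨k0, k1, k2⟩ := ih (List.forall_mem_cons.2 ⟨hb, hps⟩) h4
    have hd : ∀ d ∈ e.2.1, ev g d ∈ Fx G pt ps := fun d hd => mem_Fx.2 fun p hp =>
      M.smul_pt (hps p hp) (hps p hp) (allL_sound (allL_sound h2 d hd) p hp)
    have ho : e.1.2 ≤ (orbit (Fx G pt ps) (pt e.1.1)).ncard := by
      refine (Nat.le_of_ble_eq_true h3).trans ?_
      rw [← M.ncard_sem]
      refine Set.ncard_le_ncard (fun w hw => ?_) (Set.finite_range _)
      obtain ⟨d, hd', y, hy, rfl⟩ := M.grow_sound hd _ _ w hw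
      have hy' : y ∈ sem n pt (1 <<< e.1.1) := hy
      rw [sem_single pt hb] at hy'
      rw [hy']
      exact ⟨⟨d, hd'⟩, rfl⟩
    have hc := card_eq (Fx G pt ps) (pt e.1.1)
    change _ ≤ Nat.card (Fx G pt ps ⊓ stabilizer G (pt e.1.1) : Subgroup G) at k1
    change Nat.card (Fx G pt ps ⊓ stabilizer G (pt e.1.1) : Subgroup G) ≤ _ → Chn n pt _ (Fx G pt ps ⊓ _) at k2
    rw [List.map_cons, List.prod_cons, hc]
    refine ⟨Nat.mul_pos h0' k0, Nat.mul_le_mul ho k1, fun h5 => ⟨hb, ?_, k2 ?_⟩⟩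
    · exact Nat.le_of_mul_le_mul_right ((Nat.mul_le_mul_left _ k1).trans h5) k0
    · exact Nat.le_of_mul_le_mul_left ((Nat.mul_le_mul_right _ ho).trans h5) h0'

/-- there are elements with the given behaviour, and all of them have the property -/
def Gd (pt : ℕ → Ω) (P : G → Prop) (ps : List (ℕ × ℕ)) : Prop :=
  (∃ a : G, Maps pt ps a) ∧ ∀ y, Maps pt ps y → P y

/-- the data of an enumeration -/
structure TE (g : ℕ → G) (n k : ℕ) (pt : ℕ → Ω) (st : ℕ → ℕ → ℕ) (P : G → Prop) (leaf : ℕ → ℕ) : Prop where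
  sm : SM g n pt st
  le : n ≤ 2 ^ k
  fin : Finite G
  conj : ∀ y d, P (d⁻¹ * y * d) → P y
  leaf : ∀ v, ∃ a, TabSt n k pt (idTab n k) (leaf v) a ∧ P a

/-- the words fix all the points -/
noncomputable def dsB (step : ℕ → ℕ → ℕ) (b : ℕ) (ps : List (ℕ × ℕ)) (ds : List ℕ) : Bool :=
  allL (fun d => band (fixB step d b) (allL (fun p => band (fixB step d p.1) (fixB step d p.2)) ps)) ds

variable {st : ℕ → ℕ → ℕ} {P : G → Prop} {leaf : ℕ → ℕ}

theorem TE.gd_leaf (C : TE g n k pt st P leaf) {ps : List (ℕ × ℕ)} (hps : ∀ p ∈ ps, p.1 < n ∧ p.2 < n)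
    (hK : Fx G pt ps = ⊥) {v : ℕ} (h : allL (fun p => Nat.beq (look n k (leaf v) p.2) p.1) ps = true) :
    Gd pt P ps := by
  obtain ⟨a, ha, hP⟩ := C.leaf v
  have hm : Maps pt ps a := fun p hp => by
    rw [← Nat.eq_of_beq_eq_true (allL_sound h p hp)]
    exact (ha.look C.le (hps p hp).2).2
  refine ⟨⟨a, hm⟩, fun y hy => ?_⟩
  have : y * a⁻¹ = 1 := mem_bot.1 (hK ▸ mem_Fx.2 fun p hp => by
    conv_lhs => rw [← hm p hp, mul_smul, inv_smul_smul, hy p hp])
  rwa [mul_inv_eq_one.1 this]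

/-- the points of `S` are treated -/
def Cv (n : ℕ) (pt : ℕ → Ω) (P : G → Prop) (b : ℕ) (ps : List (ℕ × ℕ)) (S : ℕ) : Prop :=
  ∀ c < n, S.testBit c = true → Gd pt P ((c, b) :: ps)

theorem Cv.or {b S T : ℕ} {ps : List (ℕ × ℕ)} (h1 : Cv n pt P b ps S) (h2 : Cv n pt P b ps T) :
    Cv n pt P b ps (Nat.lor S T) := fun c hc h => by
  have h' : (S ||| T).testBit c = true := h
  rw [Nat.testBit_or, Bool.or_eq_true] at h'
  exact h'.elim (h1 c hc) (h2 c hc)

theorem Cv.one {b c : ℕ} {ps : List (ℕ × ℕ)} (h : c < n → Gd pt P ((c, b) :: ps)) :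
    Cv n pt P b ps (Nat.shiftLeft 1 c) := fun c' hc h1 => by
  have h' : (1 <<< c).testBit c' = true := h1
  rw [Nat.one_shiftLeft, Nat.testBit_two_pow, decide_eq_true_eq] at h'
  subst h'
  exact h hc

/-- the test of a node -/
noncomputable def ndB (st : ℕ → ℕ → ℕ) (n : ℕ) (e : ℕ × ℕ) (ps : List (ℕ × ℕ)) (ds : List ℕ) (r S : ℕ) : Bool :=
  band (dsB st e.1 ps ds) (band (Nat.ble 1 e.2) (Nat.ble e.2 (pop n (grow st ds r S))))

theorem TE.gd_node (C : TE g n k pt st P leaf) {e : ℕ × ℕ} {l ps : List (ℕ × ℕ)}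
    (hps : ∀ p ∈ ps, p.1 < n ∧ p.2 < n) (hK : Chn n pt (e :: l) (Fx G pt ps)) {ds : List ℕ} {r S : ℕ}
    (h : ndB st n e ps ds r S = true) (h3 : Cv n pt P e.1 ps S) : Gd pt P ps := by
  obtain ⟨b, idx⟩ := e
  obtain ⟨hb, ho, -⟩ := hK
  obtain ⟨h1, h2⟩ := band_eq_true.1 h
  obtain ⟨h0, h2⟩ := band_eq_true.1 h2
  replace h0 : 1 ≤ idx := Nat.le_of_ble_eq_true h0
  replace h2 : idx ≤ pop n (grow st ds r S) := Nat.le_of_ble_eq_true h2
  dsimp only at hb ho h1 h3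
  have := C.fin
  let D : Subgroup G := stabilizer G (pt b) ⊓ ⨅ p ∈ ps, (stabilizer G (pt p.1) ⊓ stabilizer G (pt p.2))
  have hD : ∀ d, d ∈ D ↔ d • pt b = pt b ∧ ∀ p ∈ ps, d • pt p.1 = pt p.1 ∧ d • pt p.2 = pt p.2 :=
    fun d => by simp only [D, mem_inf, mem_iInf, mem_stabilizer_iff]
  have hds : ∀ d ∈ ds, ev g d ∈ D := fun d hd => by
    have := band_eq_true.1 (allL_sound h1 d hd)
    exact (hD _).2 ⟨C.sm.smul_pt hb hb this.1, fun p hp =>
      ⟨C.sm.smul_pt (hps p hp).1 (hps p hp).1 (band_eq_true.1 (allL_sound this.2 p hp)).1,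
        C.sm.smul_pt (hps p hp).2 (hps p hp).2 (band_eq_true.1 (allL_sound this.2 p hp)).2⟩⟩
  have cj : ∀ z, Maps pt ps z → ∀ d ∈ D, Maps pt ps (d⁻¹ * z * d) := fun z hz d hd p hp => by
    rw [mul_smul, mul_smul, (((hD d).1 hd).2 p hp).1, hz p hp, inv_smul_eq_iff, (((hD d).1 hd).2 p hp).2]
  have real : ∀ w ∈ sem n pt (grow st ds r S), ∃ z : G, Maps pt ps z ∧ z⁻¹ • pt b = w := fun w hw => by
    obtain ⟨d, hd, _, ⟨c, hc', hc, rfl⟩, rfl⟩ := C.sm.grow_sound hds r S w hw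
    obtain ⟨z, hz⟩ := (h3 c hc' hc).1
    obtain ⟨z1, z2⟩ := List.forall_mem_cons.1 hz
    refine ⟨_, cj z z2 _ (inv_mem hd), ?_⟩
    rw [mul_inv_rev, mul_inv_rev, inv_inv, mul_smul, mul_smul, inv_smul_eq_iff.2 ((hD d).1 hd).1.symm,
      inv_smul_eq_iff.2 z1.symm]
  obtain ⟨w, hw⟩ : (sem n pt (grow st ds r S)).Nonempty :=
    Set.nonempty_of_ncard_ne_zero (by rw [C.sm.ncard_sem]; omega)
  obtain ⟨a, hm, -⟩ := real w hw
  refine ⟨⟨a, hm⟩, fun y hm' => ?_⟩
  have orb : ∀ z, Maps pt ps z → z⁻¹ • pt b ∈ a⁻¹ • orbit (Fx G pt ps) (pt b) := fun z hz' =>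
    ⟨_, ⟨⟨a * z⁻¹, mem_Fx.2 fun p hp => by
      conv_lhs => rw [← hz' p hp, mul_smul, inv_smul_smul, hm p hp]⟩, rfl⟩, by
        change a⁻¹ • (a * z⁻¹) • pt b = _
        rw [mul_smul, inv_smul_smul]⟩
  have hsub : sem n pt (grow st ds r S) ⊆ a⁻¹ • orbit (Fx G pt ps) (pt b) := fun w hw => by
    obtain ⟨z, hz, rfl⟩ := real w hw
    exact orb z hz
  have heq := Set.eq_of_subset_of_ncard_le hsub (by rw [Set.ncard_smul_set, C.sm.ncard_sem]; exact ho.trans h2)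
    ((Set.finite_range _).smul_set)
  obtain ⟨d, hd, _, ⟨c, hc', hc, rfl⟩, e⟩ := C.sm.grow_sound hds r S _ (heq ▸ orb y hm')
  refine C.conj y d ((h3 c hc' hc).2 _ (List.forall_mem_cons.2 ⟨?_, cj y hm' d hd⟩))
  rw [mul_smul, e, mul_smul, smul_inv_smul, inv_smul_eq_iff, ((hD d).1 hd).1]

/-- the points of the top nodes of a tree -/
noncomputable def msk (t : CT) : ℕ :=
  CT.rec 0 (fun v _ _ _ _ _ s => force s fun s' => Nat.lor s' (Nat.shiftLeft 1 (Nat.mod v 2048))) t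

/-- the test of a tree -/
noncomputable def go (st : ℕ → ℕ → ℕ) (n k : ℕ) (leaf : ℕ → ℕ) (t : CT) :
    ℕ → List (ℕ × ℕ) → List (ℕ × ℕ) → Bool :=
  CT.rec (motive := fun _ => ℕ → List (ℕ × ℕ) → List (ℕ × ℕ) → Bool) (fun _ _ _ => true)
    (fun v ds r kid _ gk gs b l ps => band (force (Nat.mod v 2048) fun c =>
      List.rec (force (leaf v) fun x => allL (fun p => Nat.beq (look n k x p.2) p.1) ((c, b) :: ps))
        (fun e l' _ => band (ndB st n e ((c, b) :: ps) ds r (msk kid)) (gk e.1 l' ((c, b) :: ps))) l)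
      (gs b l ps)) t

theorem TE.go_sound (C : TE g n k pt st P leaf) (t : CT) {b : ℕ} {l ps : List (ℕ × ℕ)} (hb : b < n)
    (hps : ∀ p ∈ ps, p.1 < n ∧ p.2 < n) (hK : Chn n pt l (Fx G pt ps ⊓ stabilizer G (pt b)))
    (h : go st n k leaf t b l ps = true) : Cv n pt P b ps (msk t) := by
  induction t generalizing b l ps with
  | nil => exact fun c _ hc => absurd hc (by simp [msk])
  | cons v ds r kid sib ih1 ih2 =>
    have h' : band (force (Nat.mod v 2048) fun c =>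
      List.rec (force (leaf v) fun x => allL (fun p => Nat.beq (look n k x p.2) p.1) ((c, b) :: ps))
        (fun e l' _ => band (ndB st n e ((c, b) :: ps) ds r (msk kid)) (go st n k leaf kid e.1 l' ((c, b) :: ps))) l)
      (go st n k leaf sib b l ps) = true := h
    have e : msk (.cons v ds r kid sib) = Nat.lor (msk sib) (Nat.shiftLeft 1 (Nat.mod v 2048)) :=
      force_eq (msk sib) fun s' => Nat.lor s' (Nat.shiftLeft 1 (Nat.mod v 2048))
    rw [band_eq_true, force_eq] at h'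
    rw [e]
    refine (ih2 hb hps hK h'.2).or (Cv.one fun hc => ?_)
    have hps' : ∀ p ∈ (Nat.mod v 2048, b) :: ps, p.1 < n ∧ p.2 < n := List.forall_mem_cons.2 ⟨⟨hc, hb⟩, hps⟩
    have h1 := h'.1
    cases l with
    | nil => exact C.gd_leaf hps' hK (v := v) ((force_eq _ _).symm.trans h1)
    | cons e l =>
      obtain ⟨h2, h3⟩ := band_eq_true.1 h1
      exact C.gd_node hps' hK h2 (ih1 hK.1 hps' hK.2.2 h3)

/-! ### products of two conjugates -/

/-- multiply a table by a conjugate of the letter `x` -/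
noncomputable def cjT (st : ℕ → ℕ → ℕ) (N : ℕ) (iv : List ℕ) (x f : ℕ) : ℕ → ℕ → ℕ :=
  Nat.rec (motive := fun _ => ℕ → ℕ → ℕ) (fun _ T => st x T)
    (fun _ ih w T => force (Nat.mod w N) fun m => force (st (nth 0 iv m) T) fun T' =>
      force (ih (Nat.div w N) T') (st m)) f

theorem cjT_rel {St : ℕ → G → Prop} {st : ℕ → ℕ → ℕ} (hs : ∀ m x a, St x a → St (st m x) (g m * a)) {N : ℕ}
    (hN : 0 < N) {iv : List ℕ} (hi : ∀ m < N, g (nth 0 iv m) = (g m)⁻¹) (x f w : ℕ) {T : ℕ} {a : G} (h : St T a) :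
    ∃ u, St (cjT st N iv x f w T) (u * g x * u⁻¹ * a) := by
  induction f generalizing w T a with
  | zero => exact ⟨1, by rw [one_mul, inv_one, mul_one]; exact hs x T a h⟩
  | succ f ih =>
    have e : cjT st N iv x (f + 1) w T = force (Nat.mod w N) fun m => force (st (nth 0 iv m) T) fun T' =>
      force (cjT st N iv x f (Nat.div w N) T') (st m) := rfl
    simp only [force_eq] at e
    obtain ⟨u, hu⟩ := ih (Nat.div w N) (hs (nth 0 iv (Nat.mod w N)) T a h)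
    refine ⟨g (Nat.mod w N) * u, ?_⟩
    have := hs (Nat.mod w N) _ _ hu
    rw [hi (Nat.mod w N) (Nat.mod_lt _ hN)] at this
    rw [e]
    simpa only [mul_assoc, mul_inv_rev] using this

/-- the table of a product of two conjugates of the letter `x` -/
noncomputable def lfT (st : ℕ → ℕ → ℕ) (N : ℕ) (iv : List ℕ) (x x0 v : ℕ) : ℕ :=
  force (cjT st N iv x (Nat.mod (Nat.shiftRight v 11) 8) (Nat.mod (Nat.shiftRight v 17) 2097152) x0)
    (cjT st N iv x (Nat.mod (Nat.shiftRight v 14) 8) (Nat.shiftRight v 38))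

theorem TE.prod [Finite G] {W : List Net} (M : SM g n pt (stepN W))
    (hW : ∀ m, Acts n pt (nth Net.nil W m) (g m)) (hk : n ≤ 2 ^ k) {N : ℕ} (hN : 0 < N) {iv : List ℕ}
    (hi : ∀ m < N, g (nth 0 iv m) = (g m)⁻¹) (x : ℕ) :
    TE g n k pt (stepN W) (fun y => ∃ u v, y = (u * g x * u⁻¹) * (v * g x * v⁻¹))
      (lfT (stepT n k W) N iv x (idTab n k)) := by
  refine ⟨M, hk, inferInstance, ?_, fun v => ?_⟩
  · rintro y d ⟨u, v, h⟩
    refine ⟨d * u, d * v, ?_⟩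
    have : y = d * (d⁻¹ * y * d) * d⁻¹ := by group
    rw [this, h]
    group
  · rw [lfT, force_eq]
    obtain ⟨u, hu⟩ := cjT_rel (St := TabSt n k pt (idTab n k)) (TabSt.step hW _) hN hi x
      (Nat.mod (Nat.shiftRight v 11) 8) (Nat.mod (Nat.shiftRight v 17) 2097152) (TabSt.one n k pt _)
    obtain ⟨u', hu'⟩ := cjT_rel (St := TabSt n k pt (idTab n k)) (TabSt.step hW _) hN hi x
      (Nat.mod (Nat.shiftRight v 14) 8) (Nat.shiftRight v 38) hu
    exact ⟨_, hu', u', u, by rw [mul_one]⟩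

end CfsgLib.TH2
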