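import Cfsg.Agent.Lib.TH2.TitsA
import Cfsg.Agent.Lib.LieModel.Tits.Q.Main

/-! data for the Tits group (generated) -/

set_option autoImplicit false
set_option maxRecDepth 100000
set_option Elab.async false

namespace CfsgLib.TH2.Tits

open CfsgLib.Comput CfsgLib.LieModel.Tits

def IVL : List ℕ := [1, 0, 3, 2, 5, 4, 7, 6, 9, 8, 11, 10, 13, 12, 15, 14, 17, 16, 19, 18, 20, 22, 21, 24, 23, 25, 26, 27, 28, 29, 28, 31, 32, 33, 34]

noncomputable def LF : ℕ → ℕ := lfT (stepT 1755 11 Q.W) 35 IVL 2 (idTab 1755 11)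

def L (v : ℕ) (s : CT) : CT := .cons v [] 0 .nil s

theorem iv_ok : allLt (fun m => eqChk (stepT 1755 11 Q.W) (idTab 1755 11) ([nth 0 IVL m + 1, m + 1], [])) 35 = true := by
  decide +kernel

def ch0 : List ((ℕ × ℕ) × List ℕ × ℕ) := [((0, 1755), [1, 3], 10), ((22, 80), [7, 5], 6), ((164, 16), [24, 3589], 3), ((642, 8), [32, 1379077, 791557], 1)]
theorem ch0_ok : chOK (stepN Q.W) 1755 ch0 [] = true := by decide +kernel

def ch1 : List ((ℕ × ℕ) × List ℕ × ℕ) := [((0, 1755), [1, 3], 10), ((5, 10), [7, 5], 4), ((52, 8), [19, 22], 3), ((1, 8), [592135, 1771781], 4), ((405, 8), [1771781, 21], 3), ((1096, 2), [4623], 1)]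
theorem ch1_ok : chOK (stepN Q.W) 1755 ch1 [] = true := by decide +kernel

def ch2 : List ((ℕ × ℕ) × List ℕ × ℕ) := [((0, 1755), [1, 3], 10), ((23, 80), [7, 5], 6), ((189, 8), [4874, 34], 3), ((1024, 16), [4357, 32, 7433], 3)]
theorem ch2_ok : chOK (stepN Q.W) 1755 ch2 [] = true := by decide +kernel

def ch3 : List ((ℕ × ℕ) × List ℕ × ℕ) := [((0, 1755), [1, 3], 10), ((19, 80), [7, 5], 6), ((25, 2), [24], 1), ((187, 4), [33, 34], 1), ((1676, 8), [6665, 32], 3), ((1283, 2), [984330], 1)]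
theorem ch3_ok : chOK (stepN Q.W) 1755 ch3 [] = true := by decide +kernel

def ch4 : List ((ℕ × ℕ) × List ℕ × ℕ) := [((0, 1755), [1, 3], 10), ((839, 1024), [7, 5], 9), ((1, 5), [135859717], 4), ((1539, 2), [726789], 1)]
theorem ch4_ok : chOK (stepN Q.W) 1755 ch4 [] = true := by decide +kernel

theorem top_ok : ndB (stepN Q.W) 1755 (0, 1755) [] [5, 7, 9] 5 (Nat.lor (Nat.lor (Nat.lor (Nat.lor (Nat.shiftLeft 1 0) (Nat.shiftLeft 1 6)) (Nat.shiftLeft 1 23)) (Nat.shiftLeft 1 188)) (Nat.shiftLeft 1 841)) = true := by decide +kernel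

end CfsgLib.TH2.Tits
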